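import Cfsg.Agent.H91.Layer

/-! `E`-balance: the layer of `N_F(X)` lies in the layer of `F`. -/

namespace Cfsg.Agent.H91

open Cfsg.FusionSystem H93 H94

variable {Ω : Type*} [Group Ω] {S T : Subgroup Ω} {F : FusionSystem S} {E : FusionSystem T}
  {p : ℕ}

theorem component_congr {V U : Subgroup Ω} {B : FusionSystem V} {C : FusionSystem U}
    (h₁ : B.IsSubsystemOf F) (h₂ : F.IsSubsystemOf B) (hC : C.IsComponentIn B p) :
    C.IsComponentIn F p := by
  obtain ⟨rfl, rfl⟩ := eq_of_sub_sub h₁ h₂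
  exact hC

theorem centFS_normFS_sub {X V : Subgroup Ω} (hX : X ≤ S) (hV : V ≤ normalizerIn S X) :
    (centFS (normFS F hX) hV).IsSubsystemOf (centFS F (hV.trans (normalizerIn_le S X))) :=
  isSubsystemOf_iff_M.2 fun _ _ hf => by
    obtain ⟨h1, g, hg, e⟩ := (M_centFS _).1 hf
    exact (M_centFS _).2 ⟨fun x hx => ⟨(h1 hx).1.1, (h1 hx).2⟩, g, ((M_normFS _).1 hg).toM, e⟩

theorem centFS_sub_normFS {X V : Subgroup Ω} (hX : X ≤ S) (hXV : X ≤ V)
    (hV : V ≤ normalizerIn S X) :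
    (centFS F (hV.trans (normalizerIn_le S X))).IsSubsystemOf (centFS (normFS F hX) hV) :=
  isSubsystemOf_iff_M.2 fun P _ hf => by
    obtain ⟨h1, g, hg, e1, e2⟩ := (M_centFS _).1 hf
    have h2 : P ≤ normalizerIn S X :=
      h1.trans ((centralizerIn_anti S hXV).trans (centralizerIn_le_normalizerIn S X))
    exact (M_centFS _).2 ⟨fun x hx => ⟨h2 hx, (h1 hx).2⟩, g, (M_normFS _).2 (hg.toNM
      (hXV.trans le_sup_right) (im_eq_self_of_fix fun x hx => e2 x (hXV hx)) le_rfl
      (sup_le h2 hV)), e1, e2⟩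

theorem CM.transport {V P : Subgroup Ω} {f j k : Ω → Ω} (h : CM F V P f)
    (hj : M F (V ⊔ centralizerIn S V) j) (e : ∀ x ∈ V ⊔ centralizerIn S V, k (j x) = x) :
    CM F (im j V) (im j P) fun y => j (f (k y)) := by
  have hm := fun x hx => h.mem (x := x) hx
  obtain ⟨h1, g, hg, e1, e2⟩ := h
  have hle : P ⊔ V ≤ V ⊔ centralizerIn S V := sup_le (h1.trans le_sup_right) le_sup_left
  have hj' := hj.restrict hle
  have hgm : im g (P ⊔ V) ≤ V ⊔ centralizerIn S V := by
    rw [hg.homOn.im_sup, im_eq_self_of_fix e2, im_congr e1]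
    exact sup_le ((im_le_iff.2 hm).trans le_sup_right) le_sup_left
  have hmem : ∀ y ∈ im j (P ⊔ V), k y ∈ P ⊔ V := fun y hy => by
    obtain ⟨x, hx, rfl⟩ := (hj'.mem_im le_rfl).1 hy
    rwa [e x (hle hx)]
  have hM := hj.comp (hg.comp (hj'.of_left_inv fun x hx => e x (hle hx)) hmem)
    fun y hy => hgm (mem_im_of_mem g (hmem y hy))
  rw [hj'.homOn.im_sup] at hM
  refine ⟨im_le_iff.2 fun x hx => hj.map_mem_centralizer le_sup_left
    (Subgroup.mem_sup_right (h1 hx)) (mem_centralizerIn.1 (h1 hx)).2, _, hM, fun y hy => ?_,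
    fun y hy => ?_⟩
  · obtain ⟨x, hx, rfl⟩ := (hj'.mem_im le_sup_left).1 hy
    beta_reduce
    rw [e x (hle (Subgroup.mem_sup_left hx)), e1 x hx]
  · obtain ⟨x, hx, rfl⟩ := (hj'.mem_im le_sup_right).1 hy
    rw [e x (hle (Subgroup.mem_sup_right hx)), e2 x hx]

theorem fIso_centFS [Finite S] {V : Subgroup Ω} (hV : F.IsFullyCentralized V) {j : Ω → Ω}
    (hj : M F (V ⊔ centralizerIn S V) j) :
    ∃ k, H92.FIso (centFS F hV.1) (centFS F (hj.restrict le_sup_left).im_le) j k := by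
  obtain ⟨k, hg, hk⟩ := H92.gIso_of_M hj
  have hC := hj.im_centralizerIn le_sup_left le_sup_right hV
  have hg' := hg.restrict (le_sup_right : centralizerIn S V ≤ _)
  rw [hC] at hg'
  have him : im j (V ⊔ centralizerIn S V) = im j V ⊔ centralizerIn S (im j V) := by
    rw [hj.homOn.im_sup, hC]
  refine ⟨k, hg', fun hf => (M_centFS _).2 (((M_centFS _).1 hf).transport hj hg.kj),
    fun hf => (M_centFS _).2 ?_⟩
  have := ((M_centFS _).1 hf).transport (him ▸ hk) (him ▸ hg.jk)
  rwa [hg.im_im le_sup_left] at this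

variable [Finite S] [Fact p.Prime]

omit [Finite S] in
theorem aInv_prodFS (hE : E.IsInvariantIn F) {R : Subgroup Ω} (hR : R ≤ S) :
    AInv (prodFS F E p hR) (F.autGroup R) := by
  refine aInv_gen (genData_prodGen F E p hR) (fun Y h hh => (hh.toM hR).2.1) fun a ha Y k hk => ?_
  have hM := (mem_autGroup_iff hR).1 ha
  rcases hk with ⟨rfl, r, hr, e⟩ | ⟨hY, hk⟩
  · refine (Chain.single (Or.inl ⟨rfl, efn a r, efn_mem a hr, fun _ _ => rfl⟩)
      (im_efn_le a le_rfl)).congr fun y hy => ?_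
    have hy' := im_efn_le a le_rfl hy
    rw [e _ (efn_mem _ hy'), hM.map_conj hr (efn_mem _ hy'), efn_efn_inv a hy']
  · exact Chain.single (Or.inr ⟨im_efn_le a hY,
      hk.transport hE hM hY fun x hx => efn_inv_efn a (hY hx)⟩) le_rfl

omit [Finite S] [Fact p.Prime] in
theorem stronglyClosed_normalizerIn_sup (hT : F.StronglyClosed T) {X : Subgroup Ω} (hX : X ≤ S) :
    (normFS F hX).StronglyClosed (normalizerIn (X ⊔ T) X) := by
  refine stronglyClosed_iff.2 ⟨fun x hx => ⟨sup_le hX hT.1 hx.1, hx.2⟩, fun P f hf x hx hxV => ?_⟩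
  have h1 := ((M_normFS hX).1 hf).mem hx
  obtain ⟨-, g, hg, e1, e2⟩ := (M_normFS hX).1 hf
  obtain ⟨a, ha, t, ht, rfl⟩ :=
    (mem_sup_iff_of_normalizes (hX.trans (le_normalizer_of_stronglyClosed hT))).1 hxV.1
  have ha' : a ∈ P ⊔ X := Subgroup.mem_sup_right ha
  have ht' : t ∈ P ⊔ X := by
    simpa using Subgroup.mul_mem _ (Subgroup.inv_mem _ ha') (Subgroup.mem_sup_left hx)
  refine ⟨?_, h1.2⟩
  rw [← e1 _ hx, hg.map_mul ha' ht']
  exact Subgroup.mul_mem_sup (e2 ▸ mem_im_of_mem g ha) (hg.mem_of_stronglyClosed hT ht' ht)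

variable (hS : IsPGroup p S)
include hS

section Prod

variable (hE : E.IsNormalIn F p) {X : Subgroup Ω}
include hE

theorem fullyNormalized_prodFS (hX : F.IsFullyNormalized X) :
    (prodFS F E p (sup_le hX.1 (H92.normalIn_le hE))).IsFullyNormalized X := by
  have hT := H92.normalIn_sc hE
  have hF := H92.normalIn_sat_right hE
  have hR : X ⊔ T ≤ S := sup_le hX.1 hT.1
  have := finite_of_le hR
  refine ⟨le_sup_left, fun A hA => ?_⟩
  obtain ⟨f, hf, rfl⟩ := isConj_iff.1 hA
  have hfF := hf.of_sub (prodFS_sub hR F E p)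
  obtain ⟨c, b, hc, hb, e⟩ := frattini_kMap hS hF (H92.normalIn_inv hE) hfF
  have h1 : im f X ⊔ T = X ⊔ T := eq_of_le_of_card_le (sup_le hf.im_le le_sup_right) (by
    rw [← im_sup_T hT (kChain_modT hc) hb e, hb.card_im le_rfl])
  obtain ⟨k, hk, hkX, hkN⟩ := sat_exists_map_normalizer hS hF (isConj_symm hfF.isConj) hX
  have hle : normalizerIn (X ⊔ T) (im f X) ≤ normalizerIn S (im f X) := fun x hx => ⟨hR hx.1, hx.2⟩
  have := finite_normalizerIn (S := X ⊔ T) X
  refine (hk.restrict hle).card_le_of_maps fun x hx => ⟨?_, (hkN x (hle hx)).2⟩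
  obtain ⟨a, ha, t, ht, rfl⟩ := (mem_sup_iff_of_normalizes
    (hfF.im_le.trans (le_normalizer_of_stronglyClosed hT))).1 (h1.ge hx.1)
  have ha' := le_normalizerIn hfF.im_le ha
  have ht' : t ∈ normalizerIn S (im f X) := by
    simpa using Subgroup.mul_mem _ (Subgroup.inv_mem _ ha') (hle hx)
  rw [hk.map_mul ha' ht']
  exact Subgroup.mul_mem_sup (hkX ▸ mem_im_of_mem k ha) (hk.mem_of_stronglyClosed hT ht' ht)

/-- `N_{EX}(X)` is weakly normal in `N_F(X)`. -/
theorem normFS_prodFS_weaklyNormal (hX : F.IsFullyNormalized X) :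
    (normFS (prodFS F E p (sup_le hX.1 (H92.normalIn_le hE))) le_sup_left).IsWeaklyNormalIn
      (normFS F hX.1) p := by
  have hT := H92.normalIn_sc hE
  have hF := H92.normalIn_sat_right hE
  have hI := H92.normalIn_inv hE
  have hR : X ⊔ T ≤ S := sup_le hX.1 hT.1
  have := finite_of_le hR
  have := finite_normalizerIn (S := S) X
  have hN := normFS_saturated hS hF hX
  have hsc := stronglyClosed_normalizerIn_sup hT hX.1
  have hsub := prodFS_sub hR F E p
  refine ⟨normFS_saturated (isPGroup_of_le hS hR) (prodFS_saturated hR hS hE le_sup_right)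
    (fullyNormalized_prodFS hS hE hX), hN, invariant_of_strongInv
      (isPGroup_of_le hS (normalizerIn_le _ _)) hN (isSubsystemOf_iff_M.2 fun P f hf => ?_) hsc
      fun P Q f g hf hPQ hQ hm hg => ?_⟩
  · obtain ⟨h1, g, hg, e⟩ := (M_normFS _).1 hf
    exact (M_normFS _).2 ⟨h1.trans hsc.1, g, hg.of_sub hsub, e⟩
  have hgV := hg.im_le_of_stronglyClosed hsc le_rfl hQ
  obtain ⟨-, f₁, hf₁, e1, e2⟩ := (M_normFS _).1 hf
  obtain ⟨-, g₁, hg₁, e3, e4⟩ := (M_normFS _).1 hg
  have hQR : Q ⊔ X ≤ X ⊔ T := sup_le (hQ.trans (normalizerIn_le _ _)) le_sup_left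
  obtain ⟨c, b, hc, hb, e⟩ := frattini_kMap hS hF hI hg₁
  have h1 : Q ⊔ X ⊔ T = X ⊔ T :=
    le_antisymm (sup_le hQR le_sup_right) (sup_le_sup_right le_sup_right _)
  have hbR := im_sup_T hT (kChain_modT hc) hb e
  rw [h1] at hb hbR
  have hbR' : im b (X ⊔ T) = X ⊔ T := hb.im_eq_self (im_le_iff.1 (by
    rw [hbR, hg₁.homOn.im_sup, e4, im_congr e3]
    exact sup_le (sup_le (hgV.trans (normalizerIn_le _ _)) le_sup_left) le_sup_right))
  have hcG := M_prodFS_of_kChain hR le_sup_right hQR hc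
  have hPX : P ⊔ X ≤ Q ⊔ X := sup_le_sup_right hPQ _
  have hf₁m : ∀ x ∈ P ⊔ X, f₁ x ∈ Q ⊔ X := im_le_iff.1 (by
    rw [hf₁.homOn.im_sup, e2, im_congr e1]
    exact sup_le_sup_right (im_le_iff.2 hm) _)
  obtain ⟨c', hc', c1, c2, -⟩ := (hcG.restrict hPX).exists_inv
  obtain ⟨χ, hχ, eχ⟩ := (aInv_prodFS hI hR).conj hR
    (hcG.comp (hf₁.comp hc' c2) fun y hy => hf₁m _ (c2 y hy)) hb hbR'
  have him : im b (im c (P ⊔ X)) = im g P ⊔ X := by
    rw [(hcG.homOn.mono hPX).im_im, ← im_congr fun x hx => e x (hPX hx),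
      (hg₁.homOn.mono hPX).im_sup, e4, im_congr fun x hx => e3 x (hPQ hx)]
  have key : ∀ x ∈ P ⊔ X, χ (g₁ x) = g₁ (f₁ x) := fun x hx => by
    rw [e x (hPX hx), eχ _ (mem_im_of_mem c hx), c1 x hx, e _ (hf₁m x hx)]
  rw [him] at hχ
  refine ⟨χ, (M_normFS _).2 ⟨(im_mono g hPQ).trans hgV, χ, hχ, fun _ _ => rfl,
    (hχ.restrict le_sup_right).im_eq_self fun y hy => ?_⟩, fun x hx => ?_⟩
  · rw [← e4] at hy ⊢
    obtain ⟨x, hx, rfl⟩ := (hg₁.mem_im le_sup_right).1 hy
    rw [key x (Subgroup.mem_sup_right hx)]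
    exact mem_im_of_mem g₁ (e2 ▸ mem_im_of_mem f₁ hx)
  · rw [← e3 x (hPQ hx), key x (Subgroup.mem_sup_left hx), e1 x hx, e3 _ (hm x hx)]

omit hS [Finite S] in
theorem normFS_prodFS_sub (hX : X ≤ S) :
    (normFS (prodFS F E p (sup_le hX (H92.normalIn_le hE))) le_sup_left).IsSubsystemOf
      (prodFS F E p (sup_le hX (H92.normalIn_le hE))) :=
  isSubsystemOf_iff_M.2 fun _ _ hf => ((M_normFS _).1 hf).toM

/-- A component of `N_F(X)` over a subgroup of `XT` lies over a subgroup of `hyp(E)`. -/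
theorem component_norm_le_hyp (hX : F.IsFullyNormalized X) {W : Subgroup Ω} {L : FusionSystem W}
    (hL : L.IsComponentIn (normFS F hX.1) p) (hW : W ≤ X ⊔ T) : W ≤ E.hyperfocalSubgroup p := by
  have := finite_normalizerIn (S := S) X
  have hNp := isPGroup_of_le hS (normalizerIn_le S X)
  obtain ⟨D, h1, h2, -⟩ := exists_normal_le hNp (normFS_prodFS_weaklyNormal hS hE hX)
  have h3 := component_subnormal_of_le hNp hL h1
    (le_inf hW ((subnormal_le hL.1).trans inf_le_right))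
  rw [← hyp_prodFS (sup_le hX.1 (H92.normalIn_le hE)) hS hE le_sup_right]
  exact component_le_hyp hL.2 (isSubsystemOf_trans (subnormal_sub h3)
    (isSubsystemOf_trans h2 (normFS_prodFS_sub hE hX.1)))

end Prod

theorem fullyCentralized_of_sc_norm (hF : F.IsSaturated p) {X V : Subgroup Ω}
    (hX : F.IsFullyNormalized X) (hXV : X ≤ V) (hV : (normFS F hX.1).StronglyClosed V) :
    F.IsFullyCentralized V := by
  have := finite_normalizerIn (S := S) X
  refine ⟨hV.1.trans (normalizerIn_le _ _), fun A hA => ?_⟩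
  obtain ⟨f, hf, rfl⟩ := isConj_iff.1 hA
  obtain ⟨k, hk, hkX, -⟩ := sat_exists_map_normalizer hS hF
    (isConj_symm (hf.restrict hXV).isConj) hX
  have hfV : ∀ x ∈ V, f x ∈ normalizerIn S (im f X) := fun x hx =>
    hf.map_mem_normalizer hXV hx (hV.1 hx).2
  have hM := hk.comp hf hfV
  have h1 : im (fun x => k (f x)) V = V := ((M_normFS hX.1).2 (hM.toNM hXV
    (by rw [← (hf.homOn.mono hXV).im_im, hkX]) le_rfl hV.1)).im_eq_of_stronglyClosed hV le_rfl
  have hle : centralizerIn S (im f V) ≤ normalizerIn S (im f X) :=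
    (centralizerIn_anti S (im_mono f hXV)).trans (centralizerIn_le_normalizerIn _ _)
  have := finite_centralizerIn (S := S) V
  refine (hk.restrict hle).card_le_of_maps fun x hx => ?_
  have := hk.map_mem_centralizer (im_le_iff.2 hfV) (hle hx) (mem_centralizerIn.1 hx).2
  rwa [hf.homOn.im_im, h1] at this

theorem component_norm_of_cent (hF : F.IsSaturated p) {V W : Subgroup Ω}
    (hV : F.IsFullyNormalized V) {L : FusionSystem W} (hL : L.IsComponentIn (centFS F hV.1) p) :
    L.IsComponentIn (normFS F hV.1) p := by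
  have := finite_normalizerIn (S := S) V
  have hNp := isPGroup_of_le hS (normalizerIn_le S V)
  have hVN := le_normalizerIn hV.1
  have hI := inner_isNormalIn hNp (normFS_saturated hS hF hV)
    (normal_in_norm hV.1 rfl fun _ _ => M_normFS hV.1)
  have hL' := component_congr (centFS_sub_normFS hV.1 le_rfl hVN) (centFS_normFS_sub hV.1 hVN) hL
  have := finite_centralizerIn (S := normalizerIn S V) V
  exact component_trans (component_of_le (isPGroup_of_le hNp (centralizerIn_le _ _)) hL'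
    (centSys_isNormalIn_centT hNp hI) ((component_le_hyp hL.2 (subnormal_sub hL'.1)).trans
      (hyp_centT_le hNp hI))) (subnormal_of_normal (centSys_isNormalIn hNp hI))

/-- The key step of balance, for a normal subsystem containing its centralizer. -/
theorem compLe_normFS (hE : E.IsNormalIn F p) (hC : centE F E ≤ T) :
    ∀ X, X ≤ S → ∀ hX : F.IsFullyNormalized X, CompLe (normFS F hX.1) p T := by
  have hT := H92.normalIn_sc hE
  have hF := H92.normalIn_sat_right hE
  refine downward_induction fun X hXS ih hX W L hL => ?_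
  have := finite_normalizerIn (S := S) X
  have hNp := isPGroup_of_le hS (normalizerIn_le S X)
  have hN := normFS_saturated hS hF hX
  have := finite_of_le (subnormal_le hL.1)
  by_cases hTX : T ≤ X
  · refine (quasisimple_le hL.2 fun P f hf _ x hx => mem_centE_of_CM hS hE ?_ hx).trans hC
    obtain ⟨h1, g, hg, e1, e2⟩ := component_CM hNp hN
      (normal_in_norm hX.1 rfl fun _ _ => M_normFS hX.1) hL hf
    exact ⟨fun y hy => ⟨(h1 hy).1.1, fun t ht => (h1 hy).2 t (hTX ht)⟩, g,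
      ((M_normFS hX.1).1 hg).toM.restrict (sup_le_sup_left hTX _), e1, fun t ht => e2 t (hTX ht)⟩
  have hR : X ⊔ T ≤ S := sup_le hXS hT.1
  have := finite_of_le hR
  have hlt := lt_normalizerIn (isPGroup_of_le hS hR)
    (lt_of_le_of_ne (le_sup_left : X ≤ X ⊔ T) fun e => hTX (le_sup_right.trans e.ge))
  obtain ⟨D, h1, -, -⟩ := exists_normal_le hNp (normFS_prodFS_weaklyNormal hS hE hX)
  rcases component_or_centSys hNp hL h1 with h | h
  · exact (component_norm_le_hyp hS hE hX hL ((subnormal_le h.1).trans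
      (normalizerIn_le _ _))).trans (hyp_le E p)
  have hsc := H92.normalIn_sc h1
  have hVc := fullyCentralized_of_sc_norm hS hF hX hlt.le hsc
  have h2 := component_congr (centFS_normFS_sub hX.1 hsc.1) (centFS_sub_normFS hX.1 hlt.le hsc.1)
    (component_trans h (subnormal_of_normal (centSys_isNormalIn_centT hNp h1)))
  obtain ⟨j, hj, hV'⟩ := sat_exists_fullyNormalized hS hF hVc.1
  have hj' := hj.restrict (sup_cent_le_normalizerIn hVc.1)
  obtain ⟨k, hk⟩ := fIso_centFS hVc hj'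
  obtain ⟨L', hL'⟩ := hk.exists_sub (subnormal_le h2.1) L
  have := finite_centralizerIn (S := S) (normalizerIn (X ⊔ T) X)
  have := finite_normalizerIn (S := X ⊔ T) X
  have h3 := ih _ hV'.1 (by rw [hj'.card_im le_sup_left]; exact card_lt_of_lt hlt) hV' _ L'
    (component_norm_of_cent hS hF hV' (hk.isComponentIn hL' h2))
  exact fun x hx => (hj'.mem_iff_of_stronglyClosed hT
    (Subgroup.mem_sup_right (subnormal_le h2.1 hx))).1 (h3 (mem_im_of_mem j hx))

omit [Finite S] in
theorem hyp_cp_inner_le {Q : Subgroup Ω} (h : IsCP (innerFusionSystem Q) E F) :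
    F.hyperfocalSubgroup p ≤ T := by
  refine hyp_le_of_conj_mod hS (le_normalizer_of_stronglyClosed h.sc₂) fun P f hf => ?_
  obtain ⟨P₁, P₂, f₁, f₂, h1, h2, e⟩ := (h.iff P f).1 hf
  obtain ⟨-, g, hg, eg⟩ := M_inner_iff.1 h1
  refine ⟨g, h.le₁ hg, fun x hx => ?_⟩
  obtain ⟨a, ha, b, hb, rfl, e'⟩ := e x hx
  rw [e', eg a ha, show (g * (a * b) * g⁻¹)⁻¹ * (g * a * g⁻¹ * f₂ b) = g * b⁻¹ * g⁻¹ * f₂ b by group]
  exact T.mul_mem (conj_mem_of_stronglyClosed h.sc₂ (h.le₁ hg) (T.inv_mem (h2.le hb))) (h2.mem hb)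

theorem layer_balance
    (hnc : ∀ {R : Subgroup Ω} (B : FusionSystem R), R ≤ S → B.IsSaturated p →
      (¬ ∃ (T : Subgroup Ω) (C : FusionSystem T), C.IsComponentIn B p) → B.IsConstrained p)
    (hE : E.IsLayerOf F p) {X : Subgroup Ω} (hX : F.IsFullyNormalized X) {U : Subgroup Ω}
    {L : FusionSystem U} (hL : L.IsLayerOf (normFS F hX.1) p) : L.IsSubsystemOf E := by
  have hF := H92.normalIn_sat_right hE.1
  have hT := H92.normalIn_le hE.1
  have := finite_of_le (core_le F)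
  have := finite_of_le hT
  obtain ⟨D, hD⟩ := (cpData_layer hS (core_normal F) hE).exists_cp
  have hD' : D.IsGeneralizedFittingOf F p := isGeneralizedFittingOf_iff.2 ⟨T, E, hE, hD⟩
  have hDn := fitting_isNormalIn hS hD'
  have := finite_normalizerIn (S := S) X
  have hNp := isPGroup_of_le hS (normalizerIn_le S X)
  have h1 := compLe_normFS hS hDn ((centE_fitting_le hS hnc hD').trans (center_le D)) X hX.1 hX
  have h2 := isSubsystemOf_trans (layer_le hNp hL (normFS_prodFS_weaklyNormal hS hE.1 hX)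
    fun W C hC => le_inf (((component_norm_le_hyp hS hDn hX hC ((h1 W C hC).trans
      le_sup_right)).trans (hyp_cp_inner_le (isPGroup_of_le hS (H92.normalIn_le hDn)) hD)).trans
      le_sup_right) ((subnormal_le hC.1).trans inf_le_right)) (normFS_prodFS_sub hE.1 hX.1)
  have hi := hasPPowerIndexIn_iff.1
    (hasPPowerIndexIn_prodFS (sup_le hX.1 hT) hS hE.1 le_sup_right)
  have hU := H92.normalIn_le hL.1
  have := finite_of_le hU
  have hUT : U ≤ T := (layer_hyp hNp hL).ge.trans ((hyp_mono h2).trans hi.2.1)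
  refine sub_of_coprime (isPGroup_of_le hNp hU) (H92.normalIn_sat_left hL.1) hUT
    fun P hP α hα hc => ?_
  have hP' : P ≤ T := (hP.elim (fun h => h.le) fun h => h.1.1).trans hUT
  exact (mem_autGroup_iff hP').1 (hi.2.2 P hP' α (autGroup_mono h2 P hα) hc)

end Cfsg.Agent.H91
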