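import Cfsg.Agent.H6.PPrimeDeg
import Cfsg.Agent.S0081

/-! Sums of squares of `p'`-degrees and Sylow normalisers. -/

set_option autoImplicit false
open Cfsg Cfsg.Agent Subgroup

namespace Cfsg.Agent.H91.SqDeg

theorem comb {A B : Type*} [Fintype A] [Fintype B] [DecidableEq B] (c : A → B) (a : A → ℕ)
    (b : B → ℕ) (ha : ∀ x, 0 < a x) (h : ∀ y, ∑ x with c x = y, a x ≤ b y) :
    ∑ x, a x ^ 2 ≤ ∑ y, b y ^ 2 ∧ (∑ x, a x ^ 2 = ∑ y, b y ^ 2 → ∀ x, b (c x) ≤ a x) := by
  have h1 : ∀ x, a x ^ 2 ≤ a x * b (c x) := fun x => by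
    rw [sq]
    exact Nat.mul_le_mul_left _ ((Finset.single_le_sum (f := a) (fun _ _ => Nat.zero_le _)
      (by simp)).trans (h (c x)))
  have h2 : ∑ x, a x * b (c x) ≤ ∑ y, b y ^ 2 := by
    rw [← Finset.sum_fiberwise Finset.univ c]
    refine Finset.sum_le_sum fun y _ => ?_
    rw [Finset.sum_congr rfl (g := fun x => a x * b y) fun x hx => by
      rw [(Finset.mem_filter.1 hx).2], ← Finset.sum_mul, sq]
    exact Nat.mul_le_mul_right _ (h y)
  have h3 := Finset.sum_le_sum (s := Finset.univ) fun x _ => h1 x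
  refine ⟨h3.trans h2, fun e x => ?_⟩
  have h4 := (Finset.sum_eq_sum_iff_of_le fun x _ => h1 x).1 (le_antisymm h3 (e ▸ h2)) x
    (Finset.mem_univ _)
  rw [sq] at h4
  exact (Nat.eq_of_mul_eq_mul_left (ha x) h4).ge

variable {G : Type*} [Group G] [Finite G] {p : ℕ} [hp : Fact p.Prime]

/-- a self-normalising Sylow subgroup whose commutator subgroup is cut out by a normal subgroup -/
theorem npc (P : Sylow p G) (hN : normalizer ((P : Subgroup G) : Set G) ≤ P) (K : Subgroup G)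
    [K.Normal] (h1 : K ⊓ P ≤ ⁅(P : Subgroup G), (P : Subgroup G)⁆)
    (h2 : ⁅(P : Subgroup G), (P : Subgroup G)⁆ ≤ K) : HasNormalPComplement p G := by
  let f := QuotientGroup.mk' K
  have hf : Function.Surjective f := QuotientGroup.mk'_surjective K
  let Q : Sylow p (G ⧸ K) := P.mapSurjective hf
  have hQ : normalizer ((Q : Subgroup (G ⧸ K)) : Set (G ⧸ K)) ≤ Q := by
    intro y hy
    obtain ⟨x, rfl⟩ := hf y
    let T : Subgroup G := (Q : Subgroup (G ⧸ K)).comap f
    have hPT : (P : Subgroup G) ≤ T := fun g hg => mem_map_of_mem f hg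
    have hPT' : ((x • P : Sylow p G) : Subgroup G) ≤ T := by
      rintro _ ⟨g, hg, rfl⟩
      change f (x * g * x⁻¹) ∈ (Q : Subgroup (G ⧸ K))
      rw [map_mul, map_mul, map_inv]
      exact (mem_normalizer_iff.1 hy _).1 (mem_map_of_mem f hg)
    obtain ⟨t, ht⟩ := MulAction.exists_smul_eq T (P.subtype hPT) ((x • P).subtype hPT')
    have h3 : (t : G) • P = x • P := by
      rw [Sylow.smul_subtype] at ht
      exact Sylow.subtype_injective ht
    have h4 : x⁻¹ * t ∈ (P : Subgroup G) :=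
      hN (Sylow.smul_eq_iff_mem_normalizer.1 (by rw [mul_smul, h3, inv_smul_smul]))
    have h5 : x ∈ T := by
      have := T.mul_mem t.2 (T.inv_mem (hPT h4))
      simpa using this
    exact h5
  have hC : (Q : Subgroup (G ⧸ K)) ≤ centralizer ((Q : Subgroup (G ⧸ K)) : Set (G ⧸ K)) := by
    rintro _ ⟨a, ha, rfl⟩ _ ⟨b, hb, rfl⟩
    rw [← commutatorElement_eq_one_iff_mul_comm, ← map_commutatorElement]
    exact (QuotientGroup.eq_one_iff _).2 (h2 (commutator_mem_commutator hb ha))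
  obtain ⟨M, hM, hc, k, hk⟩ := H3.hasNormalPComplement_iff_exists_normal.1
    (H3.hasNormalPComplement_of_normalizer_le_centralizer Q (hQ.trans hC))
  refine H3.hasNormalPComplement_of_normal_of_isPGroup_quotient (M.comap f)
    (IsPGroup.of_card (n := k) ((index_comap_of_surjective _ hf).trans hk))
    (S0081.result P _ fun g hg => ?_)
  have h6 : f g ∈ (Q : Subgroup (G ⧸ K)) ⊓ M := ⟨mem_map_of_mem f hg.2, hg.1⟩
  rw [H3.inf_eq_bot_of_isPGroup_of_coprime Q.isPGroup' hc, mem_bot] at h6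
  have h7 := h1 ⟨(QuotientGroup.eq_one_iff _).1 h6, hg.2⟩
  rw [← map_subtype_commutator] at h7
  exact map_mono (H3.commutator_le_frattini P.isPGroup') h7

/-- normal subgroups cutting out `P'` and `P` in the normaliser give a normal complement -/
theorem compl (P : Sylow p G) (K L : Subgroup G) [K.Normal] [L.Normal]
    (hK : K ⊓ normalizer ((P : Subgroup G) : Set G) = ⁅(P : Subgroup G), (P : Subgroup G)⁆)
    (hL : L ⊓ normalizer ((P : Subgroup G) : Set G) = P) :
    ∃ R : Subgroup G, R.Normal ∧ R ⊓ normalizer ((P : Subgroup G) : Set G) = ⊥ ∧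
      R ⊔ normalizer ((P : Subgroup G) : Set G) = ⊤ := by
  have hPL : (P : Subgroup G) ≤ L := hL.ge.trans inf_le_left
  have hmap : ((P.subtype hPL : Sylow p L) : Subgroup L).map L.subtype = P := by
    rw [Sylow.coe_subtype, subgroupOf_map_subtype, inf_eq_left.2 hPL]
  have hcm : ⁅((P.subtype hPL : Sylow p L) : Subgroup L), ((P.subtype hPL : Sylow p L) : Subgroup L)⁆.map
      L.subtype = ⁅(P : Subgroup G), (P : Subgroup G)⁆ := by rw [map_commutator, hmap]
  have h := npc (P.subtype hPL) (fun x hx => by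
      have h1 : (x : G) ∈ normalizer ((P : Subgroup G) : Set G) := by
        rw [← hmap]; exact le_normalizer_map _ (mem_map_of_mem _ hx)
      exact hL.le ⟨x.2, h1⟩) (K.subgroupOf L) (fun x hx => by
      have h1 : (x : G) ∈ ⁅(P : Subgroup G), (P : Subgroup G)⁆ :=
        hK.le ⟨hx.1, le_normalizer hx.2⟩
      rw [← hcm] at h1
      obtain ⟨y, hy, e⟩ := h1
      exact (Subtype.ext e : y = x) ▸ hy) (fun x hx => by
      have h1 : (x : G) ∈ ⁅(P : Subgroup G), (P : Subgroup G)⁆ := hcm ▸ mem_map_of_mem _ hx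
      exact (hK.ge h1).1)
  have hc := H3.hasNormalPComplement_iff_coprime.1 h
  have hcp := H3.isComplement'_pResidual_of_coprime (P.subtype hPL) hc
  have hm : ∀ g : G, g ∈ (pResidual p L).map L.subtype ↔ g ∈ L ∧ Nat.Coprime (orderOf g) p := by
    intro g
    constructor
    · rintro ⟨x, hx, rfl⟩
      exact ⟨x.2, by simpa using (H3.mem_pResidual_iff_of_hasNormalPComplement h x).1 hx⟩
    · rintro ⟨h1, h2⟩
      exact ⟨⟨g, h1⟩, (H3.mem_pResidual_iff_of_hasNormalPComplement h _).2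
        (by simpa [← orderOf_coe] using h2), rfl⟩
  refine ⟨(pResidual p L).map L.subtype, ⟨fun n hn g => ?_⟩, ?_, ?_⟩
  · rw [hm] at hn ⊢
    exact ⟨Normal.conj_mem inferInstance _ hn.1 g, by
      rw [show g * n * g⁻¹ = MulAut.conj g n from rfl, MulEquiv.orderOf_eq]; exact hn.2⟩
  · rw [eq_bot_iff]
    rintro _ ⟨⟨x, hx, rfl⟩, h1⟩
    have h2 : x ∈ pResidual p L ⊓ ((P.subtype hPL : Sylow p L) : Subgroup L) :=
      ⟨hx, hL.le ⟨x.2, h1⟩⟩
    rw [hcp.disjoint.eq_bot, mem_bot] at h2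
    simp [h2]
  · have h1 : L ≤ (pResidual p L).map L.subtype ⊔ normalizer ((P : Subgroup G) : Set G) := by
      have h2 := congrArg (Subgroup.map L.subtype) hcp.sup_eq_top
      rw [Subgroup.map_sup, hmap, ← MonoidHom.range_eq_map, range_subtype] at h2
      exact h2.ge.trans (sup_le_sup_left le_normalizer _)
    rw [eq_top_iff, ← Sylow.normalizer_sup_eq_top' P hPL]
    exact sup_le le_sup_right h1

omit hp in
theorem sum_le_card {H : Type*} [Group H] [Finite H] (f : G →* H) (hf : Function.Surjective f)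
    (q : IrrCharacter G → Prop) [DecidablePred q]
    (h : ∀ χ, q χ → ∀ g, f g = 1 → (χ : G → ℂ) g = (χ : G → ℂ) 1) :
    ∑ χ : {χ // q χ}, charDegree (χ.1 : G → ℂ) ^ 2 ≤ Nat.card H := by
  classical
  choose φ h1 h2 using fun χ : {χ // q χ} => H5.exists_isIrr_comp_eq f hf χ.1.2 (h χ.1 χ.2)
  let c : {χ // q χ} → IrrCharacter H := fun χ => ⟨φ χ, h1 χ⟩
  have hc : Function.Injective c := fun a b e => Subtype.ext (Subtype.ext (by
    rw [h2 a, h2 b, show φ a = φ b from congrArg Subtype.val e]))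
  rw [← H88.sum_charDegree_sq, Finset.sum_congr rfl (g := fun χ => charDegree (c χ : H → ℂ) ^ 2)
    fun χ _ => by rw [h2 χ, H88.charDegree_comp],
    ← Finset.sum_image (f := fun β : IrrCharacter H => charDegree (β : H → ℂ) ^ 2) hc.injOn]
  exact Finset.sum_le_sum_of_subset (Finset.subset_univ _)

theorem ker_of_normal (R : Subgroup G) [R.Normal] (hR : IsPGroup p R) {χ : G → ℂ}
    (hχ : IsIrrCharacter G χ) (h : ¬ p ∣ charDegree χ) {g : G} (hg : g ∈ ⁅R, R⁆) : χ g = χ 1 := by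
  have := Fintype.ofFinite R
  rw [← map_subtype_commutator] at hg
  obtain ⟨x, hx, rfl⟩ := hg
  obtain ⟨m, h1, -, h2⟩ := H88.exists_nat_mult
    (H5.isCharacter_comp (H5.isCharacter_of_isIrr hχ) R.subtype)
  refine (h2 x).trans (Eq.trans (Finset.sum_congr rfl fun θ _ => ?_) (h2 1).symm)
  by_cases h0 : m θ = 0
  · simp [h0]
  have h3 := H88.charDegree_dvd_of_normal R hχ θ.2 (by
    have := h1 θ
    simp only [coe_subtype] at this
    rw [this]; exact_mod_cast h0)
  obtain ⟨k, hk⟩ := H88.exists_charDegree_eq_pow hR θ.2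
  have h4 : charDegree (θ : R → ℂ) = 1 := by
    rcases k with _ | k
    · simpa using hk
    · exact absurd ((dvd_pow_self p k.succ_ne_zero).trans (hk ▸ h3)) h
  rw [(H88.commutator_le_charKer_iff θ.2).2 h4 x hx]

omit [Finite G] in
theorem card_comm (P : Subgroup G) : Nat.card (_root_.commutator P) = Nat.card (⁅P, P⁆ : Subgroup G) := by
  rw [← map_subtype_commutator, card_subtype]

open Classical in
theorem ge_of_compl (P : Sylow p G) (K : Subgroup G) [K.Normal]
    (h1 : K ⊓ normalizer ((P : Subgroup G) : Set G) = ⊥)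
    (h2 : K ⊔ normalizer ((P : Subgroup G) : Set G) = ⊤) :
    Nat.card (⁅(P : Subgroup G), (P : Subgroup G)⁆ : Subgroup G) *
      ∑ χ : {χ : IrrCharacter G // ¬ p ∣ charDegree (χ : G → ℂ)}, charDegree (χ.1 : G → ℂ) ^ 2 ≤
      Nat.card (normalizer ((P : Subgroup G) : Set G)) := by
  let f := QuotientGroup.mk' K
  have hf : Function.Surjective f := QuotientGroup.mk'_surjective K
  let R : Subgroup (G ⧸ K) := (P : Subgroup G).map f
  have hN : (normalizer ((P : Subgroup G) : Set G)).map f = ⊤ := by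
    have := congrArg (Subgroup.map f) h2
    rwa [Subgroup.map_sup, (map_eq_bot_iff K).2 (QuotientGroup.ker_mk' K).ge, bot_sup_eq,
      map_top_of_surjective f hf] at this
  have : R.Normal := normalizer_eq_top_iff.1 (top_le_iff.1 (hN.ge.trans (le_normalizer_map f)))
  have h3 := sum_le_card ((QuotientGroup.mk' ⁅R, R⁆).comp f)
    ((QuotientGroup.mk'_surjective _).comp hf)
    (fun χ : IrrCharacter G => ¬ p ∣ charDegree (χ : G → ℂ)) (fun χ hχ g hg => by
      obtain ⟨φ, h4, h5⟩ := H5.exists_isIrr_comp_eq f hf χ.2 fun g hg =>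
        H6.apply_eq_of_inf_centralizer_eq_bot P K (eq_bot_iff.2
          ((inf_le_inf_left K (centralizer_le_normalizer _)).trans h1.le)) hχ
          ((QuotientGroup.eq_one_iff _).1 hg)
      rw [h5, H88.charDegree_comp] at hχ
      rw [h5]
      simpa using ker_of_normal R (P.isPGroup'.map f) h4 hχ ((QuotientGroup.eq_one_iff _).1 hg))
  have hinj : ∀ {A : Subgroup G}, A ≤ normalizer ((P : Subgroup G) : Set G) →
      Nat.card (A.map f) = Nat.card A := fun {A} hA => by
    have h4 : Function.Injective (f.comp A.subtype) := by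
      rw [injective_iff_map_eq_one]
      intro a ha
      have h5 : (a : G) ∈ K ⊓ normalizer ((P : Subgroup G) : Set G) :=
        ⟨(QuotientGroup.eq_one_iff _).1 ha, hA a.2⟩
      rw [h1, mem_bot] at h5
      exact Subtype.ext h5
    rw [Nat.card_congr (MonoidHom.ofInjective h4).toEquiv, MonoidHom.range_comp, range_subtype]
  rw [← hinj le_rfl, hN, card_top, ← hinj ((commutator_le.2 fun a ha b hb => by
      rw [commutatorElement_def]
      exact mul_mem (mul_mem (mul_mem ha hb) (inv_mem ha)) (inv_mem hb) :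
        ⁅(P : Subgroup G), (P : Subgroup G)⁆ ≤ P).trans le_normalizer),
    map_commutator, card_eq_card_quotient_mul_card_subgroup ⁅R, R⁆, mul_comm]
  exact Nat.mul_le_mul_right _ h3

open Classical in
theorem ext_aux (N : Subgroup G) (hN : ¬ p ∣ N.index) {Q : Type*} [Group Q] [Finite Q]
    (f : N →* Q) (hf : Function.Surjective f)
    (hQ : ∀ β : IrrCharacter Q, ¬ p ∣ charDegree (β : Q → ℂ)) :
    Nat.card Q ≤ ∑ χ : {χ : IrrCharacter G // ¬ p ∣ charDegree (χ : G → ℂ)},
      charDegree (χ.1 : G → ℂ) ^ 2 ∧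
    (Nat.card Q = ∑ χ : {χ : IrrCharacter G // ¬ p ∣ charDegree (χ : G → ℂ)},
      charDegree (χ.1 : G → ℂ) ^ 2 → ∀ β : IrrCharacter Q, ∃ χ : IrrCharacter G,
        ∀ x : N, (χ : G → ℂ) x = (β : Q → ℂ) (f x)) := by
  have := Fintype.ofFinite N
  obtain ⟨ι, hι0⟩ : ∃ ι : IrrCharacter Q → IrrCharacter N,
      ∀ β, (ι β : N → ℂ) = fun x => (β : Q → ℂ) (f x) :=
    ⟨fun β => ⟨_, H5.isIrrCharacter_comp β.2 f hf⟩, fun _ => rfl⟩
  have hι : Function.Injective ι := fun a b e => Subtype.ext (funext fun y => by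
    obtain ⟨x, rfl⟩ := hf y
    exact congrFun ((hι0 a).symm.trans ((congrArg Subtype.val e).trans (hι0 b))) x)
  have hd : ∀ β, charDegree (ι β : N → ℂ) = charDegree (β : Q → ℂ) := fun β => by
    rw [hι0, H88.charDegree_comp]
  choose c h1 h2 using fun β => H6.exists_over_not_dvd hp.out N hN (ι β) (hd β ▸ hQ β)
  obtain ⟨c', hc'⟩ : ∃ c' : IrrCharacter Q → {χ : IrrCharacter G // ¬ p ∣ charDegree (χ : G → ℂ)},
      ∀ β, (c' β).1 = c β := ⟨fun β => ⟨c β, h2 β⟩, fun _ => rfl⟩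
  have hb : ∀ χ, ∑ β with c' β = χ, charDegree (β : Q → ℂ) ≤ charDegree (χ.1 : G → ℂ) := by
    intro χ
    obtain ⟨m, h5, h6, -⟩ := H88.exists_nat_mult
      (H5.isCharacter_comp (H5.isCharacter_of_isIrr χ.1.2) N.subtype)
    rw [H88.charDegree_comp] at h6
    have h8 := Finset.sum_image (s := Finset.univ.filter fun β => c' β = χ)
      (f := fun ψ : IrrCharacter N => charDegree (ψ : N → ℂ)) hι.injOn
    simp only [hd] at h8
    refine h8.ge.trans (le_trans ?_ h6.ge)
    refine le_trans (Finset.sum_le_sum fun ψ hψ => ?_)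
      (Finset.sum_le_sum_of_subset (Finset.subset_univ _))
    obtain ⟨β, hβ, rfl⟩ := Finset.mem_image.1 hψ
    have h7 := (H89.mlt_ne_zero_iff _ _ _).1 (h1 β)
    rw [← hc', (Finset.mem_filter.1 hβ).2, h5] at h7
    exact Nat.le_mul_of_pos_left _ (Nat.pos_of_ne_zero (by exact_mod_cast h7))
  obtain ⟨h3, h4⟩ := comb c' _ _ (fun β => H88.charDegree_pos β.2) hb
  simp only [hc'] at h4
  rw [H88.sum_charDegree_sq] at h3 h4
  refine ⟨h3, fun e β => ⟨c β, fun x => ?_⟩⟩
  have h5 : charDegree (c β : G → ℂ) ≤ charDegree (ι β : N → ℂ) := by rw [hd]; exact h4 e β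
  have h6 : classInner (fun x : N => (c β : G → ℂ) x) (ι β : N → ℂ) ≠ 0 :=
    (H89.mlt_ne_zero_iff N.subtype (c β) (ι β)).1 (h1 β)
  have h7 := H88.restrict_eq_of_degree_le N (H5.isCharacter_of_isIrr (c β).2) (ι β).2 h6 h5
  rw [hι0] at h7
  exact congrFun h7 x

omit hp in
theorem cut (N : Subgroup G) (D M : Subgroup N) [D.Normal] [M.Normal] (hle : D ≤ M)
    (h : ∀ β : IrrCharacter (N ⧸ D), ∃ χ : IrrCharacter G,
      ∀ x : N, (χ : G → ℂ) x = (β : N ⧸ D → ℂ) (QuotientGroup.mk' D x)) :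
    ∃ L : Subgroup G, L.Normal ∧ L ⊓ N = M.map N.subtype := by
  let k : N ⧸ D →* N ⧸ M := QuotientGroup.map _ _ (MonoidHom.id _) hle
  have hk : Function.Surjective k := fun y => by
    obtain ⟨x, rfl⟩ := QuotientGroup.mk_surjective y
    exact ⟨x, rfl⟩
  choose d h7 using fun γ : IrrCharacter (N ⧸ M) => h ⟨_, H5.isIrrCharacter_comp γ.2 k hk⟩
  replace h7 : ∀ γ (x : N), (d γ : G → ℂ) x = (γ : N ⧸ M → ℂ) (x : N ⧸ M) := h7
  refine ⟨⨅ γ, H5.charKer (H5.isCharacter_of_isIrr (d γ).2), normal_iInf_normal fun _ =>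
    inferInstance, le_antisymm ?_ ?_⟩
  · rintro x ⟨h8, h9⟩
    refine ⟨⟨x, h9⟩, (QuotientGroup.eq_one_iff _).1 (H5.eq_one_of_forall_irr fun γ hγ => ?_), rfl⟩
    exact (h7 ⟨γ, hγ⟩ ⟨x, h9⟩).symm.trans ((mem_iInf.1 h8 ⟨γ, hγ⟩).trans (h7 ⟨γ, hγ⟩ 1))
  · rintro _ ⟨x, hx, rfl⟩
    refine ⟨mem_iInf.2 fun γ => (h7 γ x).trans (Eq.trans ?_ (h7 γ 1).symm), x.2⟩
    rw [(QuotientGroup.eq_one_iff _).2 hx]; rfl

open Classical in
theorem main (P : Sylow p G) :
    Nat.card (normalizer ((P : Subgroup G) : Set G)) ≤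
      Nat.card (⁅(P : Subgroup G), (P : Subgroup G)⁆ : Subgroup G) *
      ∑ χ : {χ : IrrCharacter G // ¬ p ∣ charDegree (χ : G → ℂ)}, charDegree (χ.1 : G → ℂ) ^ 2 ∧
    (Nat.card (normalizer ((P : Subgroup G) : Set G)) =
      Nat.card (⁅(P : Subgroup G), (P : Subgroup G)⁆ : Subgroup G) *
      ∑ χ : {χ : IrrCharacter G // ¬ p ∣ charDegree (χ : G → ℂ)}, charDegree (χ.1 : G → ℂ) ^ 2 ↔
      ∃ R : Subgroup G, R.Normal ∧ R ⊓ normalizer ((P : Subgroup G) : Set G) = ⊥ ∧
        R ⊔ normalizer ((P : Subgroup G) : Set G) = ⊤) := by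
  have hR : ((P : Subgroup G).subgroupOf (normalizer ((P : Subgroup G) : Set G))).Normal :=
    normal_in_normalizer
  have hP : (P : Subgroup G) ≤ normalizer ((P : Subgroup G) : Set G) := le_normalizer
  have e1 := ge_of_compl P
  have e2 := compl P
  generalize normalizer ((P : Subgroup G) : Set G) = N at *
  have hm : ((P : Subgroup G).subgroupOf N).map N.subtype = P := by
    rw [subgroupOf_map_subtype, inf_eq_left.2 hP]
  have hi : ¬ p ∣ ((P : Subgroup G).subgroupOf N).index := fun h =>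
    P.not_dvd_index (h.trans (relIndex_dvd_index_of_le hP))
  generalize (P : Subgroup G).subgroupOf N = R at *
  have hmap : ⁅R, R⁆.map N.subtype = ⁅(P : Subgroup G), (P : Subgroup G)⁆ := by
    rw [map_commutator, hm]
  have hf := QuotientGroup.mk'_surjective ⁅R, R⁆
  have hRm := hR.map _ hf
  obtain ⟨h3, h4⟩ := ext_aux N (fun h => P.not_dvd_index (h.trans (index_dvd_of_le hP))) _ hf
    (fun β h => hi (h.trans ((H88.charDegree_dvd_index_of_comm β.2 (R.map _) (by
      rintro _ ⟨a, ha, rfl⟩ _ ⟨b, hb, rfl⟩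
      rw [← commutatorElement_eq_one_iff_mul_comm, ← map_commutatorElement]
      exact (QuotientGroup.eq_one_iff _).2 (commutator_mem_commutator ha hb))).trans
        (R.index_map_dvd hf))))
  have hc : Nat.card N = Nat.card (⁅(P : Subgroup G), (P : Subgroup G)⁆ : Subgroup G) *
      Nat.card (N ⧸ ⁅R, R⁆) := by
    rw [← hmap, card_subtype, card_eq_card_quotient_mul_card_subgroup ⁅R, R⁆, mul_comm]
  have h5 := hc.le.trans (Nat.mul_le_mul_left _ h3)
  refine ⟨h5, fun e => ?_, fun ⟨K, _, h6, h7⟩ => le_antisymm h5 (e1 K h6 h7)⟩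
  have h6 := h4 (Nat.eq_of_mul_eq_mul_left Nat.card_pos (hc.symm.trans e))
  obtain ⟨K, _, hK⟩ := cut N _ _ le_rfl h6
  obtain ⟨L, _, hL⟩ := cut N _ R (commutator_le_left _ _) h6
  exact e2 K L (hK.trans hmap) (hL.trans hm)

end Cfsg.Agent.H91.SqDeg
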