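import Cfsg.Agent.H91.SuzND
import Cfsg.Agent.H58.SuzU
import Cfsg.Agent.CO1.SuzType

/-! The normaliser and the centraliser of a subgroup of order three of the Suzuki group. -/

set_option autoImplicit false
set_option maxRecDepth 100000
set_option exponentiation.threshold 400000

namespace Cfsg.Agent.H91

open Subgroup

section
variable {C S : Type*} [Group C] [Group S]

theorem count_hom [Finite C] (φ : C →* S) {U : Subgroup S} {Z : Subgroup C} (hU : U ≤ φ.range)
    (hZ : Z ≤ φ.ker) (h : Nat.card C ≤ Nat.card U * Nat.card Z) : φ.range = U ∧ φ.ker = Z := by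
  have h1 : Nat.card φ.range * Nat.card φ.ker = Nat.card C := by
    rw [← index_ker, index_mul_card]
  have : Finite φ.range := Finite.of_surjective _ φ.rangeRestrict_surjective
  have h2 := card_le_of_le hU
  have h3 := card_le_of_le hZ
  have h4 : 0 < Nat.card φ.range := Nat.card_pos
  have h5 : 0 < Nat.card φ.ker := Nat.card_pos
  exact ⟨(eq_of_le_of_card_ge hU (Nat.le_of_mul_le_mul_right
      (h1.le.trans (h.trans (Nat.mul_le_mul_left _ h3))) h5)).symm,
    (eq_of_le_of_card_ge hZ (Nat.le_of_mul_le_mul_left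
      (h1.le.trans (h.trans (Nat.mul_le_mul_right _ h2))) h4)).symm⟩

theorem mem_zp3 {x y : C} (hx : x ^ 3 = 1) (hy : y ∈ zpowers x) : y = 1 ∨ y = x ∨ y = x * x := by
  obtain ⟨h, hh, l, hl, rfl⟩ := pc_step (H := ⊥) hx (by rw [normalizer_eq_top]; trivial)
    (show y ∈ ⊥ ⊔ zpowers x by rwa [bot_sup_eq])
  rw [mem_bot.1 hh, one_mul]
  interval_cases l <;> simp [pow_two]

theorem mem_norm_zp [Finite C] {x g : C} (h : g * x * g⁻¹ ∈ zpowers x) :
    g ∈ normalizer (zpowers x : Set C) := by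
  refine mem_normalizer_fintype fun a ha => ?_
  obtain ⟨k, rfl⟩ := mem_zpowers_iff.1 ha
  rw [← conj_zpow]
  exact zpow_mem h k

theorem cent_zp (x : C) : centralizer (zpowers x : Set C) = centralizer {x} := by
  rw [zpowers_eq_closure, centralizer_closure]

theorem relIndex_cent_three {x d : C} (hx : x ^ 3 = 1) (h1 : x ≠ 1)
    (hd : d ∈ normalizer (zpowers x : Set C)) (e : d * x * d⁻¹ = x * x) :
    (centralizer (zpowers x : Set C)).relIndex (normalizer (zpowers x : Set C)) = 2 := by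
  have h3 : x * x * (x * x) = x := by
    rw [show x * x * (x * x) = x ^ 3 * x by simp only [pow_succ, pow_zero, one_mul, mul_assoc], hx, one_mul]
  have h2 : x * x ≠ x := fun h => h1 (mul_left_cancel (h.trans (mul_one x).symm))
  have h4 : ∀ g : C, g ∈ centralizer (zpowers x : Set C) ↔ g * x * g⁻¹ = x := fun g => by
    rw [cent_zp, mem_centralizer_singleton_iff, mul_inv_eq_iff_eq_mul]
  rw [relIndex, index_eq_two_iff]
  refine ⟨⟨d, hd⟩, fun b => ?_⟩
  have h5 : (b : C) * d * x * (b * d)⁻¹ = b * x * (b : C)⁻¹ * (b * x * (b : C)⁻¹) := by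
    rw [conj_mul, ← e]; group
  rw [mem_subgroupOf, mem_subgroupOf, h4, h4, coe_mul, h5]
  rcases mem_zp3 hx ((mem_normalizer_iff.1 b.2 x).1 (mem_zpowers x)) with h | h | h
  · exact absurd (by simpa using h) h1
  · rw [h]; exact Or.inr ⟨rfl, h2⟩
  · rw [h]; exact Or.inl ⟨h3, h2⟩

end

section
open H58 H7
variable {G : Type*} [Group G] (M : Model G)

theorem fix_zp {x y : G} {p : ℕ} (hp : M.φ x p = p) (hy : y ∈ zpowers x) : M.φ y p = p :=
  (zpowers_le (H := M.St p)).2 hp hy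

theorem fix_norm {x g : G} {p : ℕ} (hg : g ∈ normalizer (zpowers x : Set G)) (hp : M.φ x p = p) :
    M.φ x (M.φ g p) = M.φ g p := by
  have h := fix_zp M hp ((mem_normalizer_iff''.1 hg x).1 (mem_zpowers x))
  rw [mul_apply, mul_apply, map_inv, Equiv.Perm.inv_eq_iff_eq] at h
  exact h

theorem lt_apply (hgen : closure (Set.range M.el) = ⊤) (g : G) {p : ℕ} (hp : p < M.N) :
    M.φ g p < M.N := (M.orb_subset_lt hgen ⊤ hp ⟨g, trivial, rfl⟩).2

end

namespace SuzN

open H14 H55 H56 H58 H58.SuzP H7 H7.SuzD H7.SuzC H91.Tab H91.SuzT H91.SuzND H15.LF CO1.Suz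

/-- the subgroup of order three -/
noncomputable abbrev Y : Subgroup Spor.Suz := zpowers x0
/-- its normaliser -/
noncomputable abbrev NY : Subgroup Spor.Suz := normalizer (Y : Set Spor.Suz)
/-- its centraliser -/
noncomputable abbrev CY : Subgroup Spor.Suz := centralizer (Y : Set Spor.Suz)

theorem e8 : e 8 = x0 := g8.2.trans ((wv_el (by decide +kernel)).trans x0_eq)

theorem x0_ne : x0 ≠ 1 := fun h => xe_ne (by rw [h]; simp)

theorem card_Y : Nat.card Y = 3 := by
  have : Fact (Nat.Prime 3) := ⟨Nat.prime_three⟩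
  rw [Nat.card_zpowers, orderOf_eq_prime x0_pow3 x0_ne]

theorem dxd : el 4 * x0 * (el 4)⁻¹ = x0 * x0 := by
  have := eqs rel ([4, 8, 4], [8, 8]) (by decide)
  simp only [wv, List.map_cons, List.map_nil, List.prod_cons, List.prod_nil, mul_one, e8, g4.2] at this
  rw [inv_eq_of_mul_eq_one_right (sq_el (by decide)), mul_assoc, this]

theorem d_N : el 4 ∈ NY := mem_norm_zp (by rw [dxd]; exact mul_mem (mem_zpowers _) (mem_zpowers _))

theorem CY_le : CY ≤ NY := centralizer_le_normalizer _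

theorem L_C {x : ℕ} (hx : x ∈ [1, 2, 3, 6, 7]) : el x ∈ CY := by
  rw [CY, cent_zp]
  exact L_cent_x (L_eq.le (el_mem_closure el _ x hx))

theorem K_le : SuzU.K ≤ NY := by
  refine (closure_le _).2 ?_
  rintro _ ⟨x, hx, rfl⟩
  have hx' : x ∈ [1, 2, 3, 4, 6, 7] := hx
  by_cases h : x = 4
  · rw [h]; exact d_N
  · exact CY_le (L_C (by simp only [List.mem_cons, List.not_mem_nil, or_false] at hx' ⊢; omega))

theorem fixX {g : Spor.Suz} (hg : g ∈ NY) {p : ℕ} (hp : MX.testBit p = false) :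
    MX.testBit (M.φ g p) = false := by
  rw [← hMX] at hp ⊢
  refine (testBit_movM M (b := 11) (by decide) X _).2 ?_
  have := (testBit_movM M (b := 11) (by decide) X _).1 hp
  exact (x0_eq ▸ fix_norm M hg (x0_eq ▸ this) :)

theorem e_not : el 5 ∉ NY := fun h => by
  have h1 := fixX h bitX.2.2.2.2.1
  have h2 := (testBit_app M [5] MX 8).symm.trans bitX.2.2.2.2.2
  rw [show wv M.el [5] = el 5 from wv1 5, h1] at h2
  exact absurd h2 (by simp)

theorem x_N : x0 ∈ NY := le_normalizer (mem_zpowers x0)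

theorem card_N_le : Nat.card NY ≤ 162 * (56 * (45 * (16 * 3))) := by
  refine card_le_step M (p := 0) (fun g hg => mem_dif (mem_full M hgen g (by decide)) (fixX hg bitX.1)) c0 ?_
  refine card_le_step M (p := 995)
    (fun g hg => mem_dif (exH.1 g (mem_H hg.2)) (fixX hg.1 bitX.2.1)) c1 ?_
  refine card_le_step M (p := 1)
    (fun g hg => mem_dif (exJ.1 g (mem_J2 hg.1.2 hg.2)) (fixX hg.1.1 bitX.2.2.1)) c2 ?_
  have h1 : NY ⊓ M.St 0 ⊓ M.St 995 ⊓ M.St 1 ≤ J1 := fun g hg =>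
    exJ.2.1 g (mem_J2 hg.1.1.2 hg.1.2) hg.2
  refine card_le_step M (p := 11)
    (fun g hg => mem_dif (ex3.1 g (h1 hg)) (fixX hg.1.1.1 bitX.2.2.2.1)) c3 ?_
  refine le_trans (card_le_of_le (K := Y) fun y hy => ?_) card_Y.le
  obtain ⟨v, hv, k, rfl⟩ := mem_A (ex3.2.1 y (h1 hy.1) hy.2)
  have h2 : v ∈ NY := by simpa using NY.mul_mem hy.1.1.1.1 (NY.inv_mem (NY.pow_mem x_N k))
  have h3 : ∀ z, x0 * z * x0⁻¹ ∈ NY → z ∈ NY := fun z hz => by
    simpa [mul_assoc] using mul_mem (mul_mem (inv_mem x_N) hz) x_N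
  rcases mem_E4.1 hv with rfl | rfl | rfl | rfl
  · rw [one_mul]; exact npow_mem_zpowers _ _
  · exact absurd h2 e_not
  · exact absurd (h3 _ h2) e_not
  · rw [← e2_comm, ← e3_eq] at h2
    exact absurd (h3 _ (h3 _ h2)) e_not

theorem K_eq : SuzU.K = NY := eq_of_le_of_card_ge K_le (by rw [SuzU.card_K]; exact card_N_le)

theorem card_N : Nat.card NY = 19595520 := K_eq ▸ SuzU.card_K

theorem relIndex_two : CY.relIndex NY = 2 := relIndex_cent_three x0_pow3 x0_ne d_N dxd

theorem card_CY : Nat.card CY = 9797760 := by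
  have h := (CY.subgroupOf NY).index_mul_card
  rw [show (CY.subgroupOf NY).index = 2 from relIndex_two, card_N,
    Nat.card_congr (subgroupOfEquivOfLe CY_le).toEquiv] at h
  omega

/-- the action on sets of points -/
def act (g : Spor.Suz) (S : Set ℕ) : Set ℕ := {i | M.φ g⁻¹ i ∈ S}

theorem act_one (S : Set ℕ) : act 1 S = S := by simp [act]

theorem act_mul (g h : Spor.Suz) (S : Set ℕ) : act (g * h) S = act g (act h S) := by
  simp [act]

/-- the family of sets -/
def fam (j : Fin 280) : Set ℕ := H58.bits (nth BS j)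

theorem nth_eq (l : List ℕ) {i : ℕ} (h : i < l.length) : nth l i = l[i] := by
  induction l generalizing i with
  | nil => exact absurd h (by simp)
  | cons a l ih =>
    cases i with
    | zero => rfl
    | succ j => exact ih (by simpa using h)

theorem fam_inj : Function.Injective fam := fun i j h => by
  have h1 : nth BS i = nth BS j := Nat.eq_of_testBit_eq fun t => by
    have := Set.ext_iff.1 h t
    exact Bool.eq_iff_iff.2 this
  rw [nth_eq _ (by rw [len]; exact i.2), nth_eq _ (by rw [len]; exact j.2)] at h1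
  exact Fin.ext ((List.Nodup.getElem_inj_iff (nodup_of_ndp nd)).1 h1)

theorem act_el {l P : ℕ} (hl : l < 8) (h : famOK l P = true) (i : Fin 280) :
    act (el l) (fam i) = fam (U43.E.perm P i) := by
  rw [famOK, Bool.and_eq_true, allN_iff] at h
  have h1 := beq_iff.1 (h.2 i i.2)
  have h2 : app 9 512 P i = (U43.E.perm P i : ℕ) := by
    rw [← U43.E.pk_perm h.1, U43.E.perm_pk]; exact U43.E.app_pk _ i
  ext t
  rw [fam, fam, ← h2, ← h1, act, inv_eq_of_mul_eq_one_right (sq_el hl)]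
  exact (Bool.eq_iff_iff.1 ((testBit_app M [l] _ t).trans (by rw [show wv M.el [l] = el l from wv1 l]))).symm

theorem perm_fam : ∀ g ∈ NY, ∀ i, ∃ j, act g (fam i) = fam j := by
  have : SuzU.K ≤ famStab act act_one act_mul fam fam_inj := by
    refine (closure_le _).2 ?_
    rintro _ ⟨x, hx, rfl⟩ i
    simp only [List.mem_cons, List.not_mem_nil, or_false] at hx
    rcases hx with rfl | rfl | rfl | rfl | rfl | rfl
    exacts [⟨_, act_el (by decide) fam1 i⟩, ⟨_, act_el (by decide) fam2 i⟩, ⟨_, act_el (by decide) fam3 i⟩,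
      ⟨_, act_el (by decide) fam4 i⟩, ⟨_, act_el (by decide) fam6 i⟩, ⟨_, act_el (by decide) fam7 i⟩]
  exact fun g hg => this (K_eq ▸ hg)

/-- the action on the family -/
noncomputable def ρ : NY →* Equiv.Perm (Fin 280) :=
  (exists_hom_fam act act_one act_mul fam fam_inj NY perm_fam).choose

theorem ρ_iff (g : NY) (i j : Fin 280) : ρ g i = j ↔ act g (fam i) = fam j :=
  (exists_hom_fam act act_one act_mul fam fam_inj NY perm_fam).choose_spec g i j

/-- `g` acts as `P` -/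
def R (g : Spor.Suz) (P : ℕ) : Prop := ∃ h : g ∈ NY, U43.E.pk (ρ ⟨g, h⟩) = P

theorem R_el {l P : ℕ} (hl : l < 8) (h : famOK l P = true) (hN : el l ∈ NY) : R (el l) P := by
  refine ⟨hN, ?_⟩
  rw [show ρ ⟨el l, hN⟩ = U43.E.perm P from Equiv.ext fun i => (ρ_iff _ _ _).2 (act_el hl h i)]
  rw [famOK, Bool.and_eq_true] at h
  exact U43.E.pk_perm h.1

theorem R.mul3 {a b c : Spor.Suz} {P Q S : ℕ} (h1 : R a P) (h2 : R b Q) (h3 : R c S) :
    R (a * b * c) (comp3 9 512 280 P Q S) := by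
  obtain ⟨h1, rfl⟩ := h1
  obtain ⟨h2, rfl⟩ := h2
  obtain ⟨h3, rfl⟩ := h3
  exact ⟨mul_mem (mul_mem h1 h2) h3, by rw [← U43.E.pk_mul3, ← map_mul, ← map_mul]; rfl⟩

theorem R.pow {a : Spor.Suz} {P : ℕ} (h : R a P) (n : ℕ) : R (a ^ n) (powP 9 512 280 P n) := by
  obtain ⟨h, rfl⟩ := h
  exact ⟨pow_mem h n, by rw [← U43.E.pk_pow, ← map_pow]; rfl⟩

theorem R1 : R (el 1) P1 := R_el (by decide) fam1 (CY_le (L_C (by decide)))
theorem R2 : R (el 2) P2 := R_el (by decide) fam2 (CY_le (L_C (by decide)))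
theorem R3 : R (el 3) P3 := R_el (by decide) fam3 (CY_le (L_C (by decide)))
theorem R4 : R (el 4) P4 := R_el (by decide) fam4 d_N
theorem R6 : R (el 6) P6 := R_el (by decide) fam6 (CY_le (L_C (by decide)))
theorem R7 : R (el 7) P7 := R_el (by decide) fam7 (CY_le (L_C (by decide)))
theorem R8 : R (el 4 * el 3 * el 4) P8 := p8 ▸ R4.mul3 R3 R4

theorem x0_eq' : x0 = (el 2 * el 3 * (el 4 * el 3 * el 4)) ^ 5 := by simp [x0, wv, mul_assoc]

theorem ρ_x0 : ρ ⟨x0, x_N⟩ = 1 := by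
  obtain ⟨h, e⟩ : R x0 (idP 9 280) := by rw [x0_eq', ← px]; exact (R2.mul3 R3 R8).pow 5
  exact U43.E.pk_injective (e.trans U43.E.pk_one.symm)

theorem dcd_C : el 4 * el 3 * el 4 ∈ CY := by
  have := eqs rel ([4, 3, 4, 8], [8, 4, 3, 4]) (by decide)
  simp only [wv, List.map_cons, List.map_nil, List.prod_cons, List.prod_nil, mul_one, e8, g4.2, g3.2] at this
  rw [CY, cent_zp, mem_centralizer_singleton_iff]
  simpa only [mul_assoc] using this

/-- the action of the centraliser -/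
noncomputable def ρC : CY →* Equiv.Perm (Fin 280) := ρ.comp (inclusion CY_le)

/-- the subgroup generated by the involutions that act as elements of the unitary group -/
noncomputable def K0 : Subgroup CY := closure {c | c * c = 1 ∧ ρC c ∈ U43.K}

theorem mem_K0 {g : Spor.Suz} {P : ℕ} (hg : g ∈ CY) (h2 : g * g = 1) (h : R g P)
    (hP : P ∈ [P1, P2, P3, P6, P7, P8]) : (⟨g, hg⟩ : CY) ∈ K0 ∧ U43.E.InG (K0.map ρC) P := by
  obtain ⟨h, e⟩ := h
  have h1 : (⟨g, hg⟩ : CY) ∈ K0 := subset_closure ⟨Subtype.ext h2,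
    U43.chain.mem_iff_sift.2 (e ▸ allL_iff.1 sf P hP :)⟩
  exact ⟨h1, e ▸ Enc.inG_pk.2 (mem_map_of_mem ρC h1)⟩

theorem dcd_sq : el 4 * el 3 * el 4 * (el 4 * el 3 * el 4) = 1 := by
  have h4 := sq_el (x := 4) (by decide)
  rw [← inv_eq_of_mul_eq_one_right h4]
  nth_rewrite 1 [inv_eq_of_mul_eq_one_right h4]
  nth_rewrite 2 [inv_eq_of_mul_eq_one_right h4]
  rw [conj_mul, sq_el (by decide)]; simp

theorem U_le : U43.K ≤ K0.map ρC := by
  refine Enc.grp_le (Enc.inG_of_slpOK _ ?_ slp)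
  intro P hP
  have hP' := hP
  simp only [List.mem_cons, List.not_mem_nil, or_false] at hP'
  rcases hP' with rfl | rfl | rfl | rfl | rfl | rfl
  exacts [(mem_K0 (L_C (by decide)) (sq_el (by decide)) R1 hP).2,
    (mem_K0 (L_C (by decide)) (sq_el (by decide)) R2 hP).2,
    (mem_K0 (L_C (by decide)) (sq_el (by decide)) R3 hP).2,
    (mem_K0 (L_C (by decide)) (sq_el (by decide)) R6 hP).2,
    (mem_K0 (L_C (by decide)) (sq_el (by decide)) R7 hP).2, (mem_K0 dcd_C dcd_sq R8 hP).2]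

theorem Y_le : Y ≤ CY := by
  rw [CY, cent_zp]; exact zpowers_le.2 (mem_centralizer_singleton_iff.2 rfl)

theorem range_ker : ρC.range = U43.K ∧ ρC.ker = Y.subgroupOf CY := by
  refine count_hom ρC (U_le.trans (map_le_range _ _)) (fun y hy => ?_) ?_
  · obtain ⟨k, hk⟩ := mem_zpowers_iff.1 (mem_subgroupOf.1 hy)
    have : inclusion CY_le y = ⟨x0, x_N⟩ ^ k := Subtype.ext hk.symm
    rw [MonoidHom.mem_ker, ρC, MonoidHom.comp_apply, this, map_zpow, ρ_x0, one_zpow]
  · rw [card_CY, U43.card, Nat.card_congr (subgroupOfEquivOfLe Y_le).toEquiv, card_Y]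

theorem K0_eq : K0 = ⊤ := by
  have hx : (⟨x0, Y_le (mem_zpowers x0)⟩ : CY) ∈ K0 := by
    have := pow_mem (mul_mem (mul_mem (mem_K0 (L_C (by decide)) (sq_el (by decide)) R2 (by simp)).1
      (mem_K0 (L_C (by decide)) (sq_el (by decide)) R3 (by simp)).1)
      (mem_K0 dcd_C dcd_sq R8 (by simp)).1) 5
    convert this using 1
    exact Subtype.ext x0_eq'
  have h1 : ρC.ker ≤ K0 := fun y hy => by
    obtain ⟨k, hk⟩ := mem_zpowers_iff.1 (mem_subgroupOf.1 (range_ker.2 ▸ hy))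
    exact (Subtype.ext hk : (⟨x0, _⟩ : CY) ^ k = y) ▸ zpow_mem hx k
  rw [eq_top_iff, ← comap_map_eq_self h1]
  exact fun c _ => U_le (range_ker.1 ▸ ⟨c, rfl⟩)

theorem exists_hom_C : ∃ φ : CY →* U43.K, Function.Surjective φ ∧ φ.ker = Y.subgroupOf CY :=
  ⟨ρC.codRestrict _ fun c => range_ker.1 ▸ ⟨c, rfl⟩, fun u => by
    obtain ⟨c, hc⟩ : (u : Equiv.Perm (Fin 280)) ∈ ρC.range := range_ker.1.ge u.2
    exact ⟨c, Subtype.ext hc⟩, by rw [MonoidHom.ker_codRestrict, range_ker.2]⟩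

theorem quasisimple : IsQuasisimple CY := by
  obtain ⟨φ, h1, h2⟩ := exists_hom_C
  have := U43.simple
  refine quasisimple_of_hom (fun h => ?_) φ h1 (fun y hy => mem_center_iff.2 fun c =>
    Subtype.ext (c.2 y (mem_subgroupOf.1 (h2 ▸ hy))).symm) (fun y hy => ?_)
    (eq_top_iff.2 (K0_eq.ge.trans (closure_mono fun c hc => hc.1)))
  · let _ : CommGroup U43.K := { (inferInstance : Group U43.K) with mul_comm := h.is_comm.comm }
    have := IsSimpleGroup.prime_card (α := U43.K)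
    rw [U43.card] at this
    exact absurd this (by norm_num)
  · obtain ⟨k, hk⟩ := mem_zpowers_iff.1 (mem_subgroupOf.1 (h2 ▸ hy))
    exact Subtype.ext (by rw [coe_pow, ← hk, ← zpow_natCast, ← zpow_mul, mul_comm, zpow_mul,
      zpow_natCast, x0_pow3, one_zpow]; rfl)

theorem ρ_fix {g : NY} {w : List ℕ} {j : Fin 280}
    (h : fixOK 11 2047 Ts 18 99 20 w (nth BS j) = true)
    (hg : (g : Spor.Suz) ∈ normalizer (zpowers (wv e w) : Set Spor.Suz)) : ρ g j = j := by
  have h1 : ∀ t, t ∈ fam j ↔ _ := good.fixOK rfl h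
  have h2 : ∀ a ∈ normalizer (zpowers (wv e w) : Set Spor.Suz), ∀ t ∈ fam j, M.φ a t ∈ fam j :=
    fun a ha t ht => (h1 _).2 ⟨lt_apply M hgen a ((h1 t).1 ht).1, fix_norm M ha ((h1 t).1 ht).2⟩
  refine (ρ_iff _ _ _).2 (Set.ext fun t => ⟨fun ht => ?_, h2 _ (inv_mem hg) t⟩)
  have := h2 _ hg _ ht
  rwa [← mul_apply, mul_inv_cancel, map_one] at this

theorem lift_U {u : Equiv.Perm (Fin 280)} (hu : u ∈ U43.K) : ∃ g, ρ g = u :=
  let ⟨_, _, e⟩ := U_le hu; ⟨_, e⟩

theorem card_three : Nat.card ↥(NY ⊓ normalizer (zpowers (e 13) : Set Spor.Suz) ⊓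
    normalizer (zpowers (e 14) : Set Spor.Suz)) ≤ 1944 := by
  have h0 := le_card_of_orb ρ ⊤ 0 Set.univ fun a _ => by
    obtain ⟨u, hu, e⟩ := (Enc.IsChain.exists_apply (L := U43.certL0) U43.chain a).2
      (allN_iff.1 o280 a a.2)
    obtain ⟨g, rfl⟩ := lift_U hu
    exact ⟨g, trivial, e⟩
  have h1 := le_card_of_orb ρ (⊤ ⊓ stb ρ 0) 28
    {a | ∃ u ∈ U43.K ⊓ MulAction.stabilizer _ (U43.E.pt 0), u (U43.E.pt 28) = a} fun a ⟨u, hu, e⟩ => by
    obtain ⟨g, rfl⟩ := lift_U hu.1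
    exact ⟨g, ⟨trivial, hu.2⟩, e⟩
  have h2 := le_ncard_of_grow (E := U43.E)
    (H := U43.K ⊓ MulAction.stabilizer _ (U43.E.pt 0)) (fun P hP => by
      have := allL_iff.1 nx P hP
      simp only [Bool.and_eq_true, beq_iff] at this
      exact (U43.chain.inG_of_sift this.1.1 this.1.2).stab (by decide) this.2) o36
  rw [card_top, card_N, Set.ncard_univ, Nat.card_fin] at h0
  have h3 := (Nat.mul_le_mul_right _ h2).trans h1
  refine le_trans (Nat.card_le_card_of_injective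
    (fun g => (⟨⟨g, g.2.1.1⟩, ⟨trivial, ρ_fix (j := 0) fv (by rw [wv_single]; exact g.2.1.2)⟩,
      ρ_fix (j := 28) fw (by rw [wv_single]; exact g.2.2)⟩ : ↥((⊤ ⊓ stb ρ 0) ⊓ stb ρ 28)))
    fun a b h => Subtype.ext (congrArg (fun x => x.1.1) h)) (by omega)

end SuzN

end Cfsg.Agent.H91
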