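import Cfsg.Agent.H91.SuzAD
import Cfsg.Agent.H91.SuzN

/-! The subgroup `3 ^ 5 : M₁₁` of the Suzuki group. -/

set_option autoImplicit false
set_option maxRecDepth 100000
set_option exponentiation.threshold 400000

namespace Cfsg.Agent.H91

open Subgroup H15

section
variable {G : Type*} [Group G]

theorem card_closure_three [Finite G] (f : ℕ → G) (l : List ℕ)
    (hc : ∀ a ∈ l, ∀ b ∈ l, f a * f b = f b * f a) (h3 : ∀ a ∈ l, f a ^ 3 = 1) :
    Nat.card (closure (f '' {x | x ∈ l})) ≤ 3 ^ l.length := by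
  induction l with
  | nil => simp
  | cons a l ih =>
    have e : closure (f '' {x | x ∈ a :: l}) = closure (f '' {x | x ∈ l}) ⊔ zpowers (f a) := by
      rw [zpowers_eq_closure, ← Subgroup.closure_union, ← Set.image_singleton, ← Set.image_union]
      congr 2
      ext x; simp
    rw [e, List.length_cons, pow_succ]
    refine (card_pc_step (h3 a List.mem_cons_self) (centralizer_le_normalizer _ ?_)).trans
      (Nat.mul_le_mul_right _ (ih (fun x hx y hy => hc x (List.mem_cons_of_mem _ hx) y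
        (List.mem_cons_of_mem _ hy)) fun x hx => h3 x (List.mem_cons_of_mem _ hx)))
    rw [centralizer_closure]
    rintro _ ⟨x, hx, rfl⟩
    exact hc x (List.mem_cons_of_mem _ hx) a List.mem_cons_self

theorem cjs_one (S : Subgroup G) : cjs 1 S = S := by ext; simp

theorem cjs_mul (g h : G) (S : Subgroup G) : cjs (g * h) S = cjs g (cjs h S) := by
  ext; simp [mul_assoc]

theorem cjs_zp (g y : G) : cjs g (zpowers y) = zpowers (g * y * g⁻¹) := MonoidHom.map_zpowers _ _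

theorem mem_norm_of_cjs {g : G} {S : Subgroup G} (h : cjs g S = S) : g ∈ normalizer (S : Set G) :=
  mem_normalizer_iff.2 fun a => by rw [← conj_mem_cjs (g := g), h]

end

section
open H14

theorem exists_r (lab : Fin 11 → ℕ) (h1 : Function.Injective fun i => pt (lab i))
    (h2 : ∀ a, (a ∈ bits 340831 ∧ a ≠ some 0) ↔ ∃ i, pt (lab i) = a) :
    ∃ r : Spor.M11 →* Equiv.Perm (Fin 11), Function.Injective r ∧
      ∀ g i j, r g i = j ↔ (g : Equiv.Perm GolayPt) (pt (lab i)) = pt (lab j) := by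
  rw [← squareDodecad_eq] at h2
  obtain ⟨r, hr⟩ := exists_hom_fam (fun (g : Equiv.Perm GolayPt) a => g a) (fun _ => rfl)
    (fun _ _ _ => rfl) _ h1 Spor.M11 fun g hg i => by
      obtain ⟨h3, h4⟩ := (h2 _).2 ⟨i, rfl⟩
      obtain ⟨j, hj⟩ := (h2 _).1 ⟨(m12_apply_mem_iff hg.1).2 h3,
        fun hc => h4 (g.injective (hc.trans (show g (some 0) = some 0 from hg.2).symm))⟩
      exact ⟨j, hj.symm⟩
  refine ⟨r, (injective_iff_map_eq_one r).2 fun g hg => Subtype.ext (m12_faithful g.2.1 fun a ha => ?_), hr⟩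
  by_cases h : a = some 0
  · rw [h]; exact g.2.2
  · obtain ⟨i, rfl⟩ := (h2 a).1 ⟨ha, h⟩
    exact (hr g i i).1 (by rw [hg]; rfl)

end

namespace SuzA

open H14 H55 H58 H58.SuzP H7 H7.SuzD H7.SuzC H91.Tab H91.SuzT H91.SuzAD CO1.Suz SuzN

/-- the elementary abelian group -/
noncomputable def A0 : Subgroup Spor.Suz := closure (e '' {x | x ∈ AL})

/-- its normaliser -/
noncomputable abbrev NA : Subgroup Spor.Suz := normalizer (A0 : Set Spor.Suz)

theorem e_cube (x : ℕ) (hx : x ∈ AL) : e x ^ 3 = 1 := by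
  simpa [wv, pow_succ, mul_assoc] using good.eqW hB (cube x hx)

theorem e_comm (x : ℕ) (hx : x ∈ AL) (y : ℕ) (hy : y ∈ AL) : e x * e y = e y * e x := by
  simpa [wv] using good.eqW hB (comm x hx y hy)

theorem A_comm : IsMulCommutative A0 := isMulCommutative_closure (by
  rintro _ ⟨x, hx, rfl⟩ _ ⟨y, hy, rfl⟩; exact e_comm x hx y hy)

theorem comm_A {a b : Spor.Suz} (ha : a ∈ A0) (hb : b ∈ A0) : a * b = b * a :=
  congrArg Subtype.val (A_comm.is_comm.comm ⟨a, ha⟩ ⟨b, hb⟩)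

theorem A_cube {a : Spor.Suz} (ha : a ∈ A0) : a ^ 3 = 1 := by
  induction ha using closure_induction with
  | mem a ha => obtain ⟨x, hx, rfl⟩ := ha; exact e_cube x hx
  | one => simp
  | mul a b ha hb h1 h2 => rw [Commute.mul_pow (comm_A ha hb), h1, h2, one_mul]
  | inv a _ h => rw [inv_pow, h, inv_one]

theorem wv_A {w : List ℕ} (h : ∀ x ∈ w, x ∈ AL) : wv e w ∈ A0 :=
  A0.list_prod_mem fun a ha => by
    obtain ⟨x, hx, rfl⟩ := List.mem_map.1 ha
    exact subset_closure ⟨x, h x hx, rfl⟩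

/-- generators of the eleven subgroups -/
noncomputable def y (i : Fin 11) : Spor.Suz := wv e (yw i)

theorem y_A (i : Fin 11) : y i ∈ A0 := wv_A (ywA i)

theorem y_fix {i j : Fin 11} : M.φ (y i) (yp j) = yp j ↔ i = j := by
  rw [y, good.φ_run (fx i j).1 (fx i j).2.1]; exact (fx i j).2.2

theorem y0 : y 0 = x0 := (wv_single e 8).trans e8
theorem y1 : y 1 = e 13 := wv_single e 13
theorem y2 : y 2 = e 14 := wv_single e 14

theorem card_y (i : Fin 11) : Nat.card (zpowers (y i)) = 3 := by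
  have : Fact (Nat.Prime 3) := ⟨Nat.prime_three⟩
  rw [Nat.card_zpowers, orderOf_eq_prime (A_cube (y_A i)) fun h => ?_]
  have h1 : ∀ j, i = j := fun j => y_fix.1 (by rw [h, map_one]; rfl)
  exact absurd ((h1 0).symm.trans (h1 1)) (by decide)

theorem zy_inj : Function.Injective fun i => zpowers (y i) := fun _ _ h =>
  y_fix.1 (fix_zp M (y_fix.2 rfl) (h.le (mem_zpowers _)))

theorem stab : A0 ⊓ M.St 0 = zpowers (y 0) ∧ Nat.card A0 = 243 := by
  have h1 : Nat.card A0 ≤ 3 ^ 5 := card_closure_three e AL e_comm e_cube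
  have h2 := card_eq_orb M A0 0
  have h3 : 81 ≤ (M.orb A0 0).ncard := le_ncard_of_many m81 (M.orb_finite' _ _) fun p hp => by
    obtain ⟨w, hw, rfl⟩ := List.mem_map.1 hp
    exact ⟨_, wv_A (w81A w hw).2, good.φ_run (w81A w hw).1 (by decide)⟩
  have h4 : zpowers (y 0) ≤ A0 ⊓ M.St 0 := zpowers_le.2 ⟨y_A 0, y_fix.2 rfl⟩
  have h5 := card_le_of_le h4
  have h6 := h2 ▸ Nat.mul_le_mul_right (Nat.card ↥(A0 ⊓ M.St 0)) h3
  rw [card_y] at h5
  exact ⟨(eq_of_le_of_card_ge h4 (by rw [card_y]; omega)).symm, by omega⟩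

theorem cj {l : ℕ} {p : Fin 11 → Fin 11} {s : Fin 11 → Bool} (h : ∀ i, eqW 11 2047 Ts B 20 ([l] ++ yw i)
    ((if s i then yw (p i) ++ yw (p i) else yw (p i)) ++ [l]) = true) (i : Fin 11) :
    cjs (e l) (zpowers (y i)) = zpowers (y (p i)) := by
  have := good.eqW hB (h i)
  rw [H7.wv_append, H7.wv_append, wv_single, ← mul_inv_eq_iff_eq_mul] at this
  rw [cjs_zp, y, this]
  split_ifs
  · rw [H7.wv_append]; exact zpowers_sq_three (A_cube (y_A _))
  · rfl

theorem norm_of {g : Spor.Suz} (h : ∀ i, ∃ j, cjs g (zpowers (y i)) = zpowers (y j)) : g ∈ NA := by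
  refine mem_normalizer_fintype fun a ha => ?_
  have : A0 ≤ A0.comap (MulAut.conj g).toMonoidHom := (closure_le _).2 (by
    rintro _ ⟨x, hx, rfl⟩
    obtain ⟨i, hi⟩ := ALy x hx
    obtain ⟨j, hj⟩ := h i
    refine zpowers_le.2 (y_A j) (hj ▸ conj_mem_cjs.2 ?_)
    rw [y, hi, wv_single]; exact mem_zpowers _)
  exact this ha

theorem perm_y : ∀ g ∈ NA, ∀ i, ∃ j, cjs g (zpowers (y i)) = zpowers (y j) := by
  intro g hg i
  have h0 : clW el [w18, w19] ≤ famStab cjs cjs_one cjs_mul _ zy_inj :=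
    clW_le (forall_cons (fun i => ⟨_, by
      rw [← wv_el e18.1, ← good.eqW hB e18.2, wv_single]; exact cj c18 i⟩) (forall_cons (fun i => ⟨_, by
      rw [← wv_el e19.1, ← good.eqW hB e19.2, wv_single]; exact cj c19 i⟩) (forall_nil' _)))
  obtain ⟨n, hn, e⟩ := orb_ge M h0 tr (mem_full M hgen g (fx i i).2.1)
  obtain ⟨j, hj⟩ : ∃ j, cjs n (zpowers (y 0)) = zpowers (y j) := hn 0
  refine ⟨j, eq_of_le_of_card_ge ?_ (by rw [card_cjs, card_y, card_y])⟩
  rw [cjs_zp, zpowers_le, ← hj, mem_cjs, ← stab.1]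
  refine ⟨(mem_normalizer_iff''.1 (norm_of hn) _).1 ((mem_normalizer_iff.1 hg _).1 (y_A i)), ?_⟩
  show M.φ _ 0 = 0
  rw [mul_apply, e, mul_apply, mul_apply, mul_apply, map_inv M.φ g, pinv_self, y_fix.2 rfl, ← e,
    map_inv, pinv_self]

theorem card_NA_le (σ : NA →* Equiv.Perm (Fin 11))
    (h : ∀ g i j, σ g i = j ↔ cjs g.1 (zpowers (y i)) = zpowers (y j)) : Nat.card NA ≤ 7920 * 243 := by
  have h1 := card_le_three (n := 8) σ
  have h2 : (((⊤ ⊓ stb σ 0) ⊓ stb σ 1) ⊓ stb σ 2).map NA.subtype ≤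
      NY ⊓ normalizer (zpowers (e 13) : Set Spor.Suz) ⊓ normalizer (zpowers (e 14) : Set Spor.Suz) := by
    rintro _ ⟨g, hg, rfl⟩
    rw [NY, Y, ← y0, ← y1, ← y2]
    exact ⟨⟨mem_norm_of_cjs ((h _ _ _).1 hg.1.1.2), mem_norm_of_cjs ((h _ _ _).1 hg.1.2)⟩,
      mem_norm_of_cjs ((h _ _ _).1 hg.2)⟩
  have h3 := (card_le_of_le h2).trans card_three
  rw [card_map_of_injective NA.subtype_injective] at h3
  omega

theorem exists_hom_N : centralizer (A0 : Set Spor.Suz) = A0 ∧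
    ∃ φ : NA →* Spor.M11, Function.Surjective φ ∧ φ.ker = A0.subgroupOf NA := by
  obtain ⟨σ, hσ⟩ := exists_hom_fam cjs cjs_one cjs_mul _ zy_inj NA perm_y
  obtain ⟨r, hr, hr'⟩ := exists_r lab (by decide +kernel) (by decide +kernel)
  have hC : ∀ g : NA, g.1 ∈ centralizer (A0 : Set Spor.Suz) → g ∈ σ.ker := fun g hg =>
    Equiv.ext fun i => (hσ g i i).2 (by
      rw [cjs_zp, ← hg _ (y_A i), mul_inv_cancel_right])
  have hA : A0 ≤ centralizer (A0 : Set Spor.Suz) := fun a ha b hb => comm_A hb ha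
  have key : ∀ {l P : ℕ} {p : Fin 11 → Fin 11}, P ∈ m11Gens →
      (∀ i, cjs (e l) (zpowers (y i)) = zpowers (y (p i))) → (∀ i, app 5 32 P (lab i) = lab (p i)) →
      GE.InG ((σ.range.comap r).map Spor.M11.subtype) P := fun {l P p} hP h1 h2 => by
    obtain ⟨g, hg, rfl⟩ := inG_m11Gens P hP
    refine Enc.inG_pk.2 ⟨⟨g, hg⟩, ⟨⟨e l, norm_of fun i => ⟨_, h1 i⟩⟩, Equiv.ext fun i => ?_⟩, rfl⟩
    refine ((hσ _ i (p i)).2 (h1 i)).trans ((hr' ⟨g, hg⟩ i (p i)).2 ?_).symm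
    rw [← h2]
    exact GE.apply_pt g ((by decide : ∀ i, lab i < 24) i)
  have hU : r.range ≤ σ.range := by
    have : GE.grp m11Gens ≤ _ := Enc.grp_le (forall_cons (key List.mem_cons_self (cj c18) l18)
      (forall_cons (key (by decide) (cj c19) l19) (forall_nil _)))
    rintro _ ⟨g, rfl⟩
    obtain ⟨k, hk, e⟩ := this (M11_eq_grp.le g.2)
    rwa [← show k = g from Subtype.ext e]
  obtain ⟨h1, h2⟩ := count_hom σ hU (Z := A0.subgroupOf NA) (fun g hg => hC g (hA hg)) (by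
    rw [Nat.card_congr (subgroupOfEquivOfLe le_normalizer).toEquiv, stab.2,
      ← Nat.card_congr (MonoidHom.ofInjective hr).toEquiv, card_M11]
    exact card_NA_le σ hσ)
  refine ⟨le_antisymm (fun g hg => ?_) hA, (MonoidHom.ofInjective hr).symm.toMonoidHom.comp
    (σ.codRestrict _ fun g => h1.le ⟨g, rfl⟩), fun u => ?_, ?_⟩
  · exact mem_subgroupOf.1 (h2 ▸ hC ⟨g, centralizer_le_normalizer _ hg⟩ hg)
  · obtain ⟨g, hg⟩ := hU ⟨u, rfl⟩
    exact ⟨g, (MonoidHom.ofInjective hr).symm_apply_eq.2 (Subtype.ext hg)⟩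
  · rw [← MonoidHom.comap_ker, (MonoidHom.ker_eq_bot_iff _).2 (MulEquiv.injective _), MonoidHom.comap_bot,
      MonoidHom.ker_codRestrict, h2]

theorem A_le : A0 ≤ NY := fun _ ha => CY_le fun _ hb =>
  comm_A (zpowers_le.2 (y0 ▸ y_A 0) hb) ha

end SuzA

end Cfsg.Agent.H91
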